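import Mathlib
import Cfsg.Agent.Lib.Block.DihLat

/-! Integral lattice lemmas for principal blocks with defect group `3^(1+2)`. -/

set_option autoImplicit false

namespace CfsgLib.E27

open Finset CfsgLib.Block

variable {ι J : Type*} [DecidableEq ι] [DecidableEq J]

structure Cols (S : Finset ι) (c : J → ι → ℤ) (d : ι → ℤ) (o : ι) : Prop where
  mem : o ∈ S
  one : ∀ j, c j o = 1
  cong : ∀ j, ∀ χ ∈ S, 3 ∣ c j χ - d χ
  orth : ∀ j l, ∑ χ ∈ S, c j χ * c l χ = if j = l then 9 else 0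

def Hs (S : Finset ι) (d : ι → ℤ) : Finset ι := S.filter fun χ => ¬ 3 ∣ d χ
def Ts (S : Finset ι) (c : ι → ℤ) : Finset ι := S.filter fun χ => c χ ^ 2 = 4
def Pl [Fintype J] (S : Finset ι) (c : J → ι → ℤ) : Finset ι :=
  S.filter fun χ => ∀ j, c j χ ^ 2 = 1
def sg (n : ℤ) : ℤ := if 3 ∣ n - 1 then 1 else -1

theorem sg_sq (n : ℤ) : sg n * sg n = 1 := by unfold sg; split_ifs <;> simp

namespace Cols
variable {S : Finset ι} {c : J → ι → ℤ} {d : ι → ℤ} {o : ι} (C : Cols S c d o)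
include C

theorem bound (j : J) {χ : ι} (hχ : χ ∈ S) : -2 ≤ c j χ ∧ c j χ ≤ 2 := by
  by_cases h : χ = o
  · rw [h, C.one]; omega
  have h1 := sum_le_sum_of_subset_of_nonneg (f := fun χ => c j χ * c j χ)
    (show {χ, o} ⊆ S by simp [insert_subset_iff, hχ, C.mem]) fun _ _ _ => mul_self_nonneg _
  rw [C.orth, if_pos rfl, sum_pair h, C.one] at h1
  constructor <;> nlinarith

theorem eq_zero_iff (j : J) {χ : ι} (hχ : χ ∈ S) : c j χ = 0 ↔ 3 ∣ d χ := by
  have := C.bound j hχ; have := C.cong j χ hχ; omega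

theorem val (j : J) {χ : ι} (hχ : χ ∈ S) : sg (d χ) * c j χ =
    (if χ ∈ Hs S d then 1 else 0) - 3 * if χ ∈ Ts S (c j) then 1 else 0 := by
  obtain ⟨h1, h2⟩ := C.bound j hχ
  have := C.cong j χ hχ
  simp only [Hs, Ts, mem_filter, hχ, true_and, sg]
  generalize c j χ = x at *
  interval_cases x <;> split_ifs <;> omega

theorem T_sub (j : J) : Ts S (c j) ⊆ Hs S d := fun χ h => by
  obtain ⟨h1, h2⟩ := mem_filter.1 h
  exact mem_filter.2 ⟨h1, fun h3 => by rw [(C.eq_zero_iff j h1).2 h3] at h2; simp at h2⟩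

theorem count (j l : J) : ((Hs S d).card : ℤ) - 3 * (Ts S (c j)).card - 3 * (Ts S (c l)).card +
    9 * (Ts S (c j) ∩ Ts S (c l)).card = if j = l then 9 else 0 := by
  have h1 : ∀ A : Finset ι, A ⊆ S → (A.card : ℤ) = ∑ χ ∈ S, if χ ∈ A then 1 else 0 :=
    fun A hA => by simp [inter_eq_right.2 hA]
  rw [← C.orth, h1 (Hs S d) (filter_subset _ _), h1 (Ts S (c j)) (filter_subset _ _),
    h1 (Ts S (c l)) (filter_subset _ _), h1 (Ts S (c j) ∩ Ts S (c l)) (inter_subset_left.trans (filter_subset _ _)),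
    mul_sum, mul_sum, mul_sum, ← sum_sub_distrib, ← sum_sub_distrib, ← sum_add_distrib]
  refine sum_congr rfl fun χ hχ => ?_
  have h2 : c j χ * c l χ = sg (d χ) * c j χ * (sg (d χ) * c l χ) := by
    linear_combination -c j χ * c l χ * sg_sq (d χ)
  have h3 := fun h => C.T_sub j (x := χ) h
  have h4 := fun h => C.T_sub l (x := χ) h
  rw [h2, C.val j hχ, C.val l hχ]
  simp only [mem_inter]
  split_ifs <;> simp_all

theorem card_H (j : J) : (Hs S d).card + 3 * (Ts S (c j)).card = 9 := by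
  have := C.count j j
  rw [inter_self, if_pos rfl] at this
  omega

theorem card_lt (j : J) : (Ts S (c j)).card < (Hs S d).card :=
  card_lt_card ((ssubset_iff_of_subset (C.T_sub j)).2 ⟨o, mem_filter.2 ⟨C.mem, fun h => by
    have := (C.eq_zero_iff j C.mem).2 h; rw [C.one] at this; omega⟩, by simp [Ts, C.one]⟩)

theorem of_ne {j l : J} (h : j ≠ l) :
    (Ts S (c j)).card = 1 ∧ Disjoint (Ts S (c j)) (Ts S (c l)) := by
  have h1 := C.count j l
  have h2 := C.card_H j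
  have h3 := C.card_H l
  have h4 := C.card_lt j
  rw [if_neg h] at h1
  have h5 := card_union_add_card_inter (Ts S (c j)) (Ts S (c l))
  have h6 : (Ts S (c j) ∪ Ts S (c l)).card < (Hs S d).card :=
    card_lt_card ((ssubset_iff_of_subset (union_subset (C.T_sub j) (C.T_sub l))).2
      ⟨o, mem_filter.2 ⟨C.mem, fun h => by
        have := (C.eq_zero_iff j C.mem).2 h; rw [C.one] at this; omega⟩, by simp [Ts, C.one]⟩)
  exact ⟨by omega, disjoint_iff_inter_eq_empty.2 (card_eq_zero.1 (by omega))⟩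

theorem mem_Pl [Fintype J] (j₀ : J) {χ : ι} : χ ∈ Pl S c ↔ χ ∈ Hs S d ∧ ∀ j, χ ∉ Ts S (c j) := by
  simp only [Pl, Hs, Ts, mem_filter]
  refine ⟨fun ⟨h1, h2⟩ => ⟨⟨h1, fun h => ?_⟩, fun j h => by have := h2 j; omega⟩,
    fun ⟨⟨h1, h2⟩, h3⟩ => ⟨h1, fun j => ?_⟩⟩
  · have := h2 j₀; rw [(C.eq_zero_iff j₀ h1).2 h] at this; omega
  · obtain ⟨h4, h5⟩ := C.bound j h1
    have := h3 j
    have := (C.eq_zero_iff j h1).not.2 h2
    generalize c j χ = x at *
    interval_cases x <;> simp_all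

theorem card_Pl [Fintype J] (j₀ : J) (h : ∀ j, (Ts S (c j)).card = 1) :
    (Pl S c).card + Fintype.card J = 6 := by
  have h1 : Pl S c = Hs S d \ univ.biUnion fun j => Ts S (c j) := by
    ext χ; simp [C.mem_Pl j₀]
  have h2 := card_sdiff_add_card_eq_card
    (biUnion_subset.2 fun j (_ : j ∈ univ) => C.T_sub j)
  rw [← h1, card_biUnion fun j _ l _ hjl => (C.of_ne hjl).2] at h2
  have := C.card_H j₀
  simp [h] at h2 this
  omega

end Cols

theorem exists_pair {S : Finset ι} {d v : ι → ℤ} (hd : ∀ χ ∈ S, 0 < d χ)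
    (h2 : ∑ χ ∈ S, v χ * v χ = 2) (h0 : ∑ χ ∈ S, v χ * d χ = 0) :
    ∃ a ∈ S, ∃ b ∈ S, v a = 1 ∧ v b = -1 ∧ (∀ χ ∈ S, v χ ≠ 0 → χ = a ∨ χ = b) ∧
      ∀ f : ι → ℤ, ∑ χ ∈ S, v χ * f χ = f a - f b := by
  obtain ⟨h3, h4⟩ := supp_of_norm_lt_four S v (n := 2) (by simpa [sq] using h2) (by norm_num)
  obtain ⟨a, b, hab, h5⟩ := card_eq_two.1 h4
  have h6 : ∀ f : ι → ℤ, ∑ χ ∈ S, v χ * f χ = v a * f a + v b * f b := fun f => by
    simp only [mul_comm (v _)]; rw [sum_mul_eq_filter, h5, sum_pair hab]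
  obtain ⟨ha, ha'⟩ := mem_filter.1 (h5.ge (mem_insert_self a _))
  obtain ⟨hb, hb'⟩ := mem_filter.1 (h5.ge (mem_insert_of_mem (mem_singleton_self b)))
  have h7 : ∀ χ ∈ S, v χ ≠ 0 → χ = a ∨ χ = b := fun χ h h' => by
    simpa using h5.le (mem_filter.2 ⟨h, h'⟩)
  have := hd a ha; have := hd b hb
  rw [h6] at h0
  rcases h3 a ha ha' with e | e <;> rcases h3 b hb hb' with e' | e' <;> rw [e, e'] at h0 h6
  · omega
  · exact ⟨a, ha, b, hb, e, e', h7, fun f => by rw [h6]; ring⟩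
  · exact ⟨b, hb, a, ha, e', e, fun χ h h' => (h7 χ h h').symm, fun f => by rw [h6]; ring⟩
  · omega

theorem exists_triple {S : Finset ι} {c v : ι → ℤ} (hc : ∀ χ ∈ S, -2 ≤ c χ ∧ c χ ≤ 2)
    (h3 : ∑ χ ∈ S, v χ * v χ = 3) (h0 : ∑ χ ∈ S, v χ * c χ = 3) {x : ι} (hx : x ∈ S)
    (hx1 : v x ≠ 0) (hx2 : c x = 0) :
    ∃ σ ∈ S, ∃ π ∈ S, v σ * c σ = 2 ∧ v π * c π = 1 ∧ v σ * v σ = 1 ∧ v π * v π = 1 ∧
      (∀ χ ∈ S, v χ ≠ 0 → χ = x ∨ χ = σ ∨ χ = π) ∧
      ∀ f : ι → ℤ, ∑ χ ∈ S, v χ * f χ = v x * f x + v σ * f σ + v π * f π := by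
  obtain ⟨h4, h5⟩ := supp_of_norm_lt_four S v (n := 3) (by simpa [sq] using h3) (by norm_num)
  have hx3 : x ∈ S.filter (v · ≠ 0) := mem_filter.2 ⟨hx, hx1⟩
  obtain ⟨a, b, hab, h6⟩ := card_eq_two.1 (by rw [card_erase_of_mem hx3, h5] :
    ((S.filter (v · ≠ 0)).erase x).card = 2)
  have h7 : ∀ f : ι → ℤ, ∑ χ ∈ S, v χ * f χ = v x * f x + v a * f a + v b * f b := fun f => by
    simp only [mul_comm (v _)]
    rw [sum_mul_eq_filter, ← add_sum_erase _ _ hx3, h6, sum_pair hab, add_assoc]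
  obtain ⟨ha, ha'⟩ := mem_filter.1 (mem_of_mem_erase (h6.ge (mem_insert_self a _)))
  obtain ⟨hb, hb'⟩ := mem_filter.1
    (mem_of_mem_erase (h6.ge (mem_insert_of_mem (mem_singleton_self b))))
  have h8 : ∀ χ ∈ S, v χ ≠ 0 → χ = x ∨ χ = a ∨ χ = b := fun χ h h' => or_iff_not_imp_left.2
    fun h'' => by simpa using h6.le (mem_erase.2 ⟨h'', mem_filter.2 ⟨h, h'⟩⟩)
  have := hc a ha; have := hc b hb
  rw [h7, hx2] at h0
  have k1 : v a * v a = 1 := by rcases h4 a ha ha' with e | e <;> simp [e]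
  have k2 : v b * v b = 1 := by rcases h4 b hb hb' with e | e <;> simp [e]
  have k3 : v a * c a ≤ 2 := by rcases h4 a ha ha' with e | e <;> rw [e] <;> omega
  have k4 : v b * c b ≤ 2 := by rcases h4 b hb hb' with e | e <;> rw [e] <;> omega
  by_cases h : v a * c a = 2
  · exact ⟨a, ha, b, hb, h, by omega, k1, k2, h8, h7⟩
  · exact ⟨b, hb, a, ha, by omega, by omega, k2, k1, fun χ h h' => (h8 χ h h').imp_right Or.symm,
      fun f => by rw [h7]; ring⟩

theorem Cols.main [Fintype J] {κ : Type*} [Fintype κ] [DecidableEq κ] {S : Finset ι}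
    {c : J → ι → ℤ} {d : ι → ℤ} {o : ι} (C : Cols S c d o) (hd : ∀ χ ∈ S, 0 < d χ)
    (hκ : Fintype.card κ + Fintype.card J = 6) (j₀ : J) (γ α : κ → ι → ℤ)
    (g1 : ∀ i k, ∑ χ ∈ S, γ i χ * γ k χ = if i = k then 3 else 1)
    (g2 : ∀ i k, ∑ χ ∈ S, α i χ * α k χ = if i = k then 2 else 0)
    (g3 : ∀ i k, ∑ χ ∈ S, α i χ * γ k χ = if i = k then -1 else 0)
    (g4 : ∀ i j, ∑ χ ∈ S, γ i χ * c j χ = if j = j₀ then 3 else 0)
    (g5 : ∀ i j, ∑ χ ∈ S, α i χ * c j χ = 0) (g6 : ∀ i, ∑ χ ∈ S, α i χ * d χ = 0)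
    (cov : ∀ χ ∈ S, 3 ∣ d χ → ∃ i, γ i χ ≠ 0 ∨ α i χ ≠ 0) :
    (Hs S d).card = 6 ∧ S.card = 6 + 2 * Fintype.card κ := by
  choose a ha b hb a1 b1 ab sab using fun i => exists_pair hd (by rw [g2, if_pos rfl]) (g6 i)
  have cab : ∀ i j, c j (a i) = c j (b i) := fun i j => sub_eq_zero.1 ((sab i _).symm.trans (g5 i j))
  have gab : ∀ i k, i ≠ k → γ k (a i) = γ k (b i) := fun i k h =>
    sub_eq_zero.1 ((sab i _).symm.trans (by rw [g3, if_neg h]))
  have hab : ∀ i, a i ≠ b i := fun i h => by have := a1 i; rw [h, b1] at this; omega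
  have dis : ∀ i k, i ≠ k → α k (a i) = 0 ∧ α k (b i) = 0 := fun i k h => by
    have h1 : α k (a i) = α k (b i) := sub_eq_zero.1 ((sab i _).symm.trans (by rw [g2, if_neg h]))
    suffices α k (a i) = 0 from ⟨this, h1 ▸ this⟩
    by_contra h2
    rcases ab k _ (ha i) h2 with e | e <;> rcases ab k _ (hb i) (h1 ▸ h2) with e' | e'
    · exact hab i (e.trans e'.symm)
    · rw [e, e', a1, b1] at h1; omega
    · rw [e, e', a1, b1] at h1; omega
    · exact hab i (e.trans e'.symm)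
  have inj : Function.Injective (Sum.elim a b) := by
    have k1 := a1; have k2 := b1
    rintro (i | i) (k | k) h <;> simp only [Sum.elim_inl, Sum.elim_inr] at h <;>
      rcases eq_or_ne i k with rfl | e
    all_goals first | rfl | exact absurd h (hab _) | exact absurd h.symm (hab _) |
      (have := dis i k e; rw [h] at this; have := k1 k; have := k2 k; omega)
  have tri : ∀ i, c j₀ (a i) = 0 → ∃ x, (x = a i ∨ x = b i) ∧ ∃ σ ∈ S, ∃ π ∈ S,
      γ i σ * c j₀ σ = 2 ∧ γ i π * c j₀ π = 1 ∧ γ i σ * γ i σ = 1 ∧ γ i π * γ i π = 1 ∧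
      (∀ χ ∈ S, γ i χ ≠ 0 → χ = x ∨ χ = σ ∨ χ = π) ∧
      ∀ f : ι → ℤ, ∑ χ ∈ S, γ i χ * f χ = γ i x * f x + γ i σ * f σ + γ i π * f π := fun i h => by
    have h1 := (sab i _).symm.trans (g3 i i)
    rw [if_pos rfl] at h1
    have := fun {x} => @exists_triple _ _ S _ (γ i) (fun χ => C.bound j₀) (by rw [g1, if_pos rfl])
      (by rw [g4, if_pos rfl]) x
    by_cases h2 : γ i (a i) = 0
    · exact ⟨_, Or.inr rfl, this (hb i) (by omega) (cab i j₀ ▸ h)⟩
    · exact ⟨_, Or.inl rfl, this (ha i) h2 h⟩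
  haveI : Nonempty ι := ⟨o⟩
  choose! x hx σ hσ π hπ s2 p1 s1 p2 supp ssum using tri
  have cx : ∀ i, c j₀ (a i) = 0 → x i ∈ S ∧ c j₀ (x i) = 0 := fun i h => by
    rcases hx i h with e | e <;> rw [e]
    exacts [⟨ha i, h⟩, ⟨hb i, cab i j₀ ▸ h⟩]
  have σ4 : ∀ i, c j₀ (a i) = 0 → σ i ∈ Ts S (c j₀) := fun i h => mem_filter.2 ⟨hσ i h, by
    linear_combination (γ i (σ i) * c j₀ (σ i) + 2) * s2 i h - c j₀ (σ i) ^ 2 * s1 i h⟩
  have π1 : ∀ i, c j₀ (a i) = 0 → c j₀ (π i) ^ 2 = 1 := fun i h => by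
    linear_combination (γ i (π i) * c j₀ (π i) + 1) * p1 i h - c j₀ (π i) ^ 2 * p2 i h
  have zr : ∀ i, c j₀ (a i) = 0 → ∀ χ ∈ S, c j₀ χ = 0 → γ i χ ≠ 0 → χ = x i := fun i h χ h1 h2 h3 => by
    rcases supp i h χ h1 h3 with e | e | e
    · exact e
    · have := s2 i h; rw [← e, h2] at this; omega
    · have := p1 i h; rw [← e, h2] at this; omega
  have ne : ∀ i k, i ≠ k → c j₀ (a i) = 0 → c j₀ (a k) = 0 → σ i = σ k → π i ≠ π k :=
    fun i k hik hi hk e e' => by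
      have h1 := (ssum i hi (γ k)).symm.trans (g1 i k)
      have h2 : γ k (x i) = 0 := by_contra fun h2 => by
        have h3 : γ k (a i) ≠ 0 := by rcases hx i hi with e | e <;> simp_all
        exact hab i ((zr k hk _ (ha i) hi h3).trans
          (zr k hk _ (hb i) (cab i j₀ ▸ hi) (gab i k hik ▸ h3)).symm)
      have h3 : γ i (σ i) = γ k (σ i) := mul_right_cancel₀ (b := c j₀ (σ i))
        (fun h => by have := s2 i hi; rw [h] at this; omega) (by rw [s2 i hi, e, s2 k hk])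
      have h4 : γ i (π i) = γ k (π i) := mul_right_cancel₀ (b := c j₀ (π i))
        (fun h => by have := p1 i hi; rw [h] at this; omega) (by rw [p1 i hi, e', p1 k hk])
      rw [if_neg hik, h2, ← h3, ← h4, s1 i hi, p2 i hi] at h1
      omega
  have bad : ∀ i, c j₀ (a i) ≠ 0 → a i ∈ Hs S d ∧ b i ∈ Hs S d := fun i h =>
    ⟨mem_filter.2 ⟨ha i, (C.eq_zero_iff j₀ (ha i)).not.1 h⟩,
      mem_filter.2 ⟨hb i, (C.eq_zero_iff j₀ (hb i)).not.1 (cab i j₀ ▸ h)⟩⟩
  have hH := C.card_H j₀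
  have hT : ∀ j, (Ts S (c j)).card = 1 := fun j => by
    by_cases hJ : ∃ l, j ≠ l
    · exact (C.of_ne hJ.choose_spec).1
    obtain rfl : j = j₀ := by_contra fun h => hJ ⟨_, h⟩
    have h1 : Fintype.card J = 1 := Fintype.card_eq_one_iff.2 ⟨j, fun l => by_contra fun h =>
      hJ ⟨l, Ne.symm h⟩⟩
    have h2 := card_le_card_of_injOn (s := (univ.filter fun i => c j (a i) ≠ 0).disjSum
      (univ.filter fun i => c j (a i) ≠ 0)) (t := Hs S d) (Sum.elim a b) (by
        rintro (i | i) h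
        · exact (bad i (by simpa using h)).1
        · exact (bad i (by simpa using h)).2) inj.injOn
    have h3 := card_le_card_of_injOn (s := univ.filter fun i => ¬ c j (a i) ≠ 0)
      (t := Ts S (c j) ×ˢ (Hs S d \ Ts S (c j))) (fun i => (σ i, π i)) (fun i h => by
        have h : c j (a i) = 0 := by simpa using h
        have := π1 i h
        exact mem_coe.2 (mem_product.2 ⟨σ4 i h, mem_sdiff.2 ⟨mem_filter.2 ⟨hπ i h,
          (C.eq_zero_iff j (hπ i h)).not.1 fun e => absurd (e ▸ this) (by norm_num)⟩,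
          fun e => absurd ((mem_filter.1 e).2.symm.trans this) (by norm_num)⟩⟩))
      fun i hi k hk e => by_contra fun hik => ne i k hik (by simpa using hi) (by simpa using hk)
        (congrArg Prod.fst e) (congrArg Prod.snd e)
    have h4 := card_filter_add_card_filter_not (s := univ) fun i => c j (a i) ≠ 0
    have h5 := C.card_lt j
    rw [card_disjSum] at h2
    rw [card_product, card_sdiff_of_subset (C.T_sub j)] at h3
    rw [card_univ] at h4
    generalize (Ts S (c j)).card = t at hH h3 h5 ⊢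
    have : t ≤ 2 := by omega
    interval_cases t <;> omega
  have uT : ∀ j, ∀ χ ∈ Ts S (c j), ∀ ψ ∈ Ts S (c j), χ = ψ := fun j => card_le_one.1 (hT j).le
  have badP : ∀ i, c j₀ (a i) ≠ 0 → a i ∈ Pl S c ∧ b i ∈ Pl S c := fun i h => by
    have : ∀ j, a i ∉ Ts S (c j) := fun j e => hab i (uT j _ e _
      (mem_filter.2 ⟨hb i, cab i j ▸ (mem_filter.1 e).2⟩))
    exact ⟨(C.mem_Pl j₀).2 ⟨(bad i h).1, this⟩, (C.mem_Pl j₀).2 ⟨(bad i h).2, fun j e =>
      this j (mem_filter.2 ⟨ha i, cab i j ▸ (mem_filter.1 e).2⟩)⟩⟩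
  have πP : ∀ i, c j₀ (a i) = 0 → π i ∈ Pl S c := fun i h => mem_filter.2 ⟨hπ i h, fun j => by
    by_cases e : j = j₀
    · exact e ▸ π1 i h
    have h1 := (ssum i h (c j)).symm.trans (g4 i j)
    rw [if_neg e, (C.eq_zero_iff j (cx i h).1).2 ((C.eq_zero_iff j₀ (cx i h).1).1 (cx i h).2)] at h1
    have h2 : c j (σ i) ^ 2 = 1 := by
      obtain ⟨k1, k2⟩ := C.bound j (hσ i h)
      have k3 := (C.eq_zero_iff j (hσ i h)).not.2 (mem_filter.1 (C.T_sub j₀ (σ4 i h))).2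
      have k4 : c j (σ i) ^ 2 ≠ 4 := fun k =>
        disjoint_left.1 (C.of_ne e).2 (mem_filter.2 ⟨hσ i h, k⟩) (σ4 i h)
      generalize c j (σ i) = y at k1 k2 k3 k4 ⊢
      interval_cases y <;> omega
    linear_combination (γ i (π i) * c j (π i) - γ i (σ i) * c j (σ i)) * h1 -
      c j (π i) ^ 2 * p2 i h + c j (σ i) ^ 2 * s1 i h + h2⟩
  have mix : ∀ i k, c j₀ (a i) ≠ 0 → c j₀ (a k) = 0 → π k ≠ a i ∧ π k ≠ b i := fun i k hi hk => by
    have h1 := gab i k (by rintro rfl; exact hi hk)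
    have h2 : ∀ χ ∈ Pl S c, γ k χ ≠ 0 → χ = π k := fun χ h h' => by
      have h3 := (mem_filter.1 h).2 j₀
      rcases supp k hk χ (mem_filter.1 h).1 h' with e | e | e
      · rw [e, (cx k hk).2] at h3; omega
      · have := (mem_filter.1 (σ4 k hk)).2; rw [e] at h3; omega
      · exact e
    have h3 : γ k (π k) ≠ 0 := fun h => by have := p2 k hk; rw [h] at this; omega
    exact ⟨fun e => hab i (e.symm.trans (h2 _ (badP i hi).2 (h1 ▸ e ▸ h3)).symm),
      fun e => hab i ((h2 _ (badP i hi).1 (h1 ▸ e ▸ h3)).trans e)⟩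
  have good : ∀ i, c j₀ (a i) = 0 := fun i₀ => by_contra fun h₀ => by
    have h1 := card_le_card_of_injOn (s := univ) (t := Pl S c)
      (fun i : Option κ => i.elim (b i₀) fun i => if c j₀ (a i) = 0 then π i else a i) (by
        rintro (_ | i) -
        · exact (badP i₀ h₀).2
        · simp only [Option.elim]; split_ifs with h
          exacts [πP i h, (badP i h).1]) (by
        have kk : ∀ i, (if c j₀ (a i) = 0 then π i else a i) ≠ b i₀ := fun i => by
          split_ifs with h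
          exacts [(mix i₀ i h₀ h).2, fun e => by simpa using @inj (.inl i) (.inr i₀) e]
        rintro (_ | i) - (_ | k) - e <;> simp only [Option.elim] at e
        · rfl
        · exact absurd e.symm (kk _)
        · exact absurd e (kk _)
        · split_ifs at e with h h' h'
          · exact congrArg some (by_contra fun hik =>
              ne i k hik h h' (uT j₀ _ (σ4 i h) _ (σ4 k h')) e)
          · exact absurd e (mix k i h' h).1
          · exact absurd e.symm (mix i k h h').1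
          · simpa using @inj (.inl i) (.inl k) e)
    have := C.card_Pl j₀ hT
    rw [card_univ, Fintype.card_option] at h1
    omega
  have h1 : S.filter (fun χ => ¬ ¬ 3 ∣ d χ) = univ.image (Sum.elim a b) := by
    ext χ
    simp only [mem_filter, not_not, mem_image, mem_univ, true_and, Sum.exists, Sum.elim_inl,
      Sum.elim_inr]
    refine ⟨fun ⟨h1, h2⟩ => ?_, ?_⟩
    · obtain ⟨i, h | h⟩ := cov χ h1 h2
      · rw [zr i (good i) χ h1 ((C.eq_zero_iff j₀ h1).2 h2) h]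
        exact (hx i (good i)).imp (fun e => ⟨i, e.symm⟩) fun e => ⟨i, e.symm⟩
      · exact (ab i χ h1 h).imp (fun e => ⟨i, e.symm⟩) fun e => ⟨i, e.symm⟩
    · rintro (⟨i, rfl⟩ | ⟨i, rfl⟩)
      exacts [⟨ha i, (C.eq_zero_iff j₀ (ha i)).1 (good i)⟩,
        ⟨hb i, (C.eq_zero_iff j₀ (hb i)).1 (cab i j₀ ▸ good i)⟩]
  have h2 := card_filter_add_card_filter_not (s := S) fun χ => ¬ 3 ∣ d χ
  rw [h1, card_image_of_injective _ inj, card_univ, Fintype.card_sum] at h2
  have := hT j₀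
  change (Hs S d).card + _ = _ at h2
  omega

end CfsgLib.E27
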